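import Mathlib.RingTheory.SimpleModule.Isotypic
import Mathlib.LinearAlgebra.Dimension.Constructions
import Mathlib.LinearAlgebra.FiniteDimensional.Lemmas
import Mathlib.LinearAlgebra.Projection

/-!
# Large semisimple modules over algebras which act through few operators (helper36, task 444 for S3386)

`exists_isotypic` : if `R` acts on the semisimple module `V` through a space of operators spanned by at most `K`
of them and `dim V > K²m` then `V` contains the sum of `m` copies of a simple module of dimension at most `K`.
-/

set_option autoImplicit false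

namespace Cfsg.Agent.H36.Sims

open Submodule

variable {F R V : Type} [Field F] [Ring R] [Algebra F R] [AddCommGroup V] [Module F V] [Module R V]
    [IsScalarTower F R V]

/-- `R` acts through a space of operators spanned by at most `K` of them. -/
def Few (F R V : Type) [Field F] [Ring R] [Algebra F R] [AddCommGroup V] [Module F V] [Module R V]
    (K : ℕ) : Prop :=
  ∃ T : Finset R, T.card ≤ K ∧ ∀ x : R, ∃ y ∈ Submodule.span F (T : Set R), ∀ v : V, x • v = y • v

/-- cyclic modules are small -/
theorem finrank_cyclic [Module.Finite F V] {K : ℕ} (hK : Few F R V K) (v : V) :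
    Module.finrank F ↥(span R {v}) ≤ K := by
  classical
  obtain ⟨T, hT, h⟩ := hK
  let g : R →ₗ[F] V := (LinearMap.toSpanSingleton R V v).restrictScalars F
  have h1 : (span R {v}).restrictScalars F ≤ span F ((T.image g : Finset V) : Set V) := by
    intro w hw
    obtain ⟨x, rfl⟩ := mem_span_singleton.1 (show w ∈ span R {v} from hw)
    obtain ⟨y, hy, hxy⟩ := h x
    rw [hxy v, Finset.coe_image, ← Submodule.map_span]
    exact ⟨y, hy, rfl⟩
  calc Module.finrank F ↥(span R {v}) = Module.finrank F ↥((span R {v}).restrictScalars F) := rfl
    _ ≤ Module.finrank F ↥(span F ((T.image g : Finset V) : Set V)) := Submodule.finrank_mono h1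
    _ ≤ (T.image g).card := finrank_span_finset_le_card _
    _ ≤ T.card := Finset.card_image_le
    _ ≤ K := hT

theorem internal [IsSemisimpleModule R V] :
    iSupIndep (fun c : isotypicComponents R V => (c : Submodule R V)) ∧
      ⨆ c : isotypicComponents R V, (c : Submodule R V) = ⊤ :=
  ⟨(sSupIndep_iff _).1 (sSupIndep_isotypicComponents R V),
    (sSup_eq_iSup' _).symm.trans (sSup_isotypicComponents R V)⟩

/-- few isotypic components -/
theorem card_components [Module.Finite F V] [IsSemisimpleModule R V] [Fintype (isotypicComponents R V)] {K : ℕ}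
    (hK : Few F R V K) : Fintype.card (isotypicComponents R V) ≤ K := by
  classical
  obtain ⟨hind, -⟩ := internal (R := R) (V := V)
  have hne : ∀ c : isotypicComponents R V, ∃ v ∈ (c : Submodule R V), v ≠ 0 := fun c =>
    Submodule.exists_mem_ne_zero_of_ne_bot (bot_lt_isotypicComponents c.2).ne'
  choose w hw hw0 using hne
  let s : V := ∑ c : isotypicComponents R V, w c
  obtain ⟨P, hP⟩ := exists_isCompl (span R {s})
  let f : V →ₗ[R] V := (span R {s}).projection P hP
  have hfs : f s = s := Submodule.projection_apply_left hP ⟨s, mem_span_singleton_self s⟩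
  have hfc : ∀ c : isotypicComponents R V, f (w c) ∈ (c : Submodule R V) := by
    intro c
    have h2 : ∀ c' : Submodule R V, c' ∈ isotypicComponents R V → c' ≤ c'.comap f := by
      rintro c' ⟨S, hS, rfl⟩
      exact LinearMap.le_comap_isotypicComponent S f
    exact h2 c.1 c.2 (hw c)
  have hfr : ∀ x, f x ∈ span R {s} := fun x => Submodule.projection_apply_mem hP x
  have heq : ∀ c, f (w c) = w c := fun c =>
    (iSupIndep_iff_finsetSum_eq_imp_eq _).1 hind Finset.univ (fun c => f (w c)) w (fun c _ => ⟨hfc c, hw c⟩)
      (by rw [← map_sum]; exact hfs) c (Finset.mem_univ c)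
  have hmem : ∀ c, w c ∈ span R {s} := fun c => heq c ▸ hfr (w c)
  have hli : LinearIndependent F (fun c => (⟨w c, hmem c⟩ : ↥(span R {s}))) := by
    rw [Fintype.linearIndependent_iff]
    intro a ha c
    have h1 : ∑ c, a c • w c = 0 := by
      have := congrArg (Subtype.val : ↥(span R {s}) → V) ha
      simpa using this
    have h2 := (iSupIndep_iff_finsetSum_eq_imp_eq _).1 hind Finset.univ (fun c => a c • w c) (fun _ => 0)
      (fun c _ => ⟨Submodule.smul_of_tower_mem _ _ (hw c), Submodule.zero_mem _⟩) (by simpa using h1) c
      (Finset.mem_univ c)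
    exact (smul_eq_zero.1 h2).resolve_right (hw0 c)
  have hfin : Module.Finite F ↥(span R {s}) :=
    (inferInstance : Module.Finite F ↥((span R {s}).restrictScalars F))
  exact hli.fintype_card_le_finrank.trans (finrank_cyclic hK s)

theorem exists_isotypic {F R V : Type} [Field F] [Ring R] [Algebra F R] [AddCommGroup V] [Module F V] [Module R V]
    [IsScalarTower F R V] [Module.Finite F V] [IsSemisimpleModule R V] (K m : ℕ)
    (hK : ∃ T : Finset R, T.card ≤ K ∧ ∀ x : R, ∃ y ∈ Submodule.span F (T : Set R), ∀ v : V, x • v = y • v)
    (hdim : K * K * m < Module.finrank F V) :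
    ∃ U : Submodule R V, IsSimpleModule R U ∧ Module.finrank F U ≤ K ∧
      ∃ W : Submodule R V, Nonempty (W ≃ₗ[R] (Fin m → U)) := by
  classical
  have hN : IsNoetherian R V := isNoetherian_of_tower F inferInstance
  have : Fintype (isotypicComponents R V) := Fintype.ofFinite _
  have hc := card_components (F := F) (R := R) (V := V) hK
  obtain ⟨hind, htop⟩ := internal (R := R) (V := V)
  have hint : DirectSum.IsInternal (fun c : isotypicComponents R V => (c : Submodule R V)) :=
    DirectSum.isInternal_submodule_of_iSupIndep_of_iSup_eq_top hind htop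
  have hint' : DirectSum.IsInternal (fun c : isotypicComponents R V => (c : Submodule R V).restrictScalars F) :=
    hint
  have hsum : Module.finrank F V = ∑ c : isotypicComponents R V, Module.finrank F ↥((c : Submodule R V).restrictScalars F) := by
    rw [← Module.finrank_directSum]
    exact (LinearEquiv.ofBijective (DirectSum.coeLinearMap _) hint').finrank_eq.symm
  obtain ⟨c, hcm⟩ : ∃ c : isotypicComponents R V, K * m < Module.finrank F ↥((c : Submodule R V).restrictScalars F) := by
    by_contra hcon
    push Not at hcon
    have h1 : Module.finrank F V ≤ ∑ _c : isotypicComponents R V, K * m := by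
      rw [hsum]
      exact Finset.sum_le_sum fun c _ => hcon c
    rw [Finset.sum_const, Finset.card_univ, smul_eq_mul] at h1
    have h2 : Fintype.card (isotypicComponents R V) * (K * m) ≤ K * (K * m) := Nat.mul_le_mul_right _ hc
    have h3 : K * (K * m) = K * K * m := by ring
    omega
  obtain ⟨n, -, U, -, hU, ⟨e⟩⟩ := (IsIsotypic.isotypicComponents c.2).submodule_linearEquiv_fun
  have hUK : Module.finrank F U ≤ K := by
    obtain ⟨u, hu, hu0⟩ := Submodule.exists_mem_ne_zero_of_ne_bot (isSimpleModule_iff_isAtom.1 hU).1
    have h1 : U = span R {u} := by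
      refine (((isSimpleModule_iff_isAtom.1 hU).le_iff_eq ?_).1 ?_).symm
      · intro h
        exact hu0 ((Submodule.span_singleton_eq_bot).1 h)
      · rw [Submodule.span_singleton_le_iff_mem]; exact hu
    rw [h1]
    exact finrank_cyclic hK u
  have hnm : m ≤ n := by
    have h1 : Module.finrank F ↥((c : Submodule R V).restrictScalars F) = n * Module.finrank F U := by
      have h2 : Module.finrank F ↥((c : Submodule R V).restrictScalars F) = Module.finrank F (Fin n → U) :=
        (e.restrictScalars F).finrank_eq
      have hfin : Module.Finite F U := (inferInstance : Module.Finite F ↥(U.restrictScalars F))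
      rw [h2, Module.finrank_pi_fintype, Finset.sum_const, Finset.card_univ, Fintype.card_fin, smul_eq_mul]
    rw [h1] at hcm
    by_contra hlt
    have h2 : n * Module.finrank F U ≤ m * K := Nat.mul_le_mul (by omega) hUK
    rw [mul_comm m K] at h2
    omega
  refine ⟨U, hU, hUK, ?_⟩
  let i : (Fin m → U) →ₗ[R] (Fin n → U) :=
    LinearMap.pi fun k => if h : (k : ℕ) < m then LinearMap.proj (⟨k, h⟩ : Fin m) else 0
  have hi : Function.Injective i := by
    intro x y hxy
    funext k
    have h1 := congrFun hxy (Fin.castLE hnm k)
    simpa [i] using h1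
  let j : (Fin m → U) →ₗ[R] V := (c : Submodule R V).subtype ∘ₗ e.symm.toLinearMap ∘ₗ i
  have hj : Function.Injective j :=
    (Submodule.subtype_injective _).comp (e.symm.injective.comp hi)
  exact ⟨LinearMap.range j, ⟨(LinearEquiv.ofInjective j hj).symm⟩⟩

end Cfsg.Agent.H36.Sims
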